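import Cfsg.Agent.KC.R11.C0x29

set_option maxRecDepth 100000
set_option Elab.async false

namespace Cfsg.Agent.KC.R11

theorem c5x40x0 : run3 10 [] 61 5 59 40 1 0 = true := by decide +kernel
theorem c11x56x0 : run3 10 [] 61 11 87 56 1 0 = true := by decide +kernel
theorem c9x4x0 : run3 10 [] 61 9 49 4 1 0 = true := by decide +kernel
theorem c5x25x0 : run3 10 [] 61 5 59 25 1 0 = true := by decide +kernel
theorem c11x75x0 : run3 10 [] 61 11 87 75 1 0 = true := by decide +kernel
theorem c11x47x0 : run3 10 [] 61 11 87 47 1 0 = true := by decide +kernel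
theorem c11x69x0 : run3 10 [] 61 11 87 69 1 0 = true := by decide +kernel
theorem c11x50x0 : run3 10 [] 61 11 87 50 1 0 = true := by decide +kernel

end Cfsg.Agent.KC.R11
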