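import Cfsg.Agent.KC.R11.C11x23

set_option maxRecDepth 100000
set_option Elab.async false

namespace Cfsg.Agent.KC.R11

theorem c9x16x0 : run3 10 [] 61 9 49 16 1 0 = true := by decide +kernel
theorem c12x96x0 : run3 10 [] 61 12 109 96 1 0 = true := by decide +kernel
theorem c15x44x2 : run3 10 [] 61 15 57 44 7 2 = true := by decide +kernel
theorem c15x42x0 : run3 10 [] 61 15 57 42 1 0 = true := by decide +kernel
theorem c46x15x0 : run3 10 [] 61 46 33 15 1 0 = true := by decide +kernel
theorem c40x4x0 : run3 10 [] 61 40 21 4 1 0 = true := by decide +kernel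

end Cfsg.Agent.KC.R11
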