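import Cfsg.Agent.KC.R11.C11x5

set_option maxRecDepth 100000
set_option Elab.async false

namespace Cfsg.Agent.KC.R11

theorem c5x20x0 : run3 10 [] 61 5 59 20 1 0 = true := by decide +kernel
theorem c17x18x3 : run3 10 [] 61 17 19 18 5 3 = true := by decide +kernel

end Cfsg.Agent.KC.R11
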