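import Cfsg.Agent.KC.R11.C12x25

set_option maxRecDepth 100000
set_option Elab.async false

namespace Cfsg.Agent.KC.R11

theorem c11x62x0 : run3 10 [] 61 11 87 62 1 0 = true := by decide +kernel
theorem c44x6x0 : run3 10 [] 61 44 7 6 1 0 = true := by decide +kernel
theorem c18x24x0 : run3 10 [] 61 18 39 24 1 0 = true := by decide +kernel
theorem c5x43x0 : run3 10 [] 61 5 59 43 1 0 = true := by decide +kernel
theorem c15x16x0 : run3 10 [] 61 15 57 16 1 0 = true := by decide +kernel
theorem c12x26x0 : run3 10 [] 61 12 109 26 1 0 = true := by decide +kernel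
theorem c40x19x0 : run3 10 [] 61 40 21 19 1 0 = true := by decide +kernel

end Cfsg.Agent.KC.R11
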