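import Cfsg.Agent.KC.R11.C13x16

set_option maxRecDepth 100000
set_option Elab.async false

namespace Cfsg.Agent.KC.R11

theorem c42x19x0 : run3 10 [] 61 42 57 19 1 0 = true := by decide +kernel
theorem c43x55x0 : run3 10 [] 61 43 73 55 1 0 = true := by decide +kernel
theorem c12x63x0 : run3 10 [] 61 12 109 63 1 0 = true := by decide +kernel
theorem c12x13x0 : run3 10 [] 61 12 109 13 1 0 = true := by decide +kernel
theorem c12x59x0 : run3 10 [] 61 12 109 59 1 0 = true := by decide +kernel
theorem c43x31x0 : run3 10 [] 61 43 73 31 1 0 = true := by decide +kernel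
theorem c12x73x0 : run3 10 [] 61 12 109 73 1 0 = true := by decide +kernel
theorem c15x34x0 : run3 10 [] 61 15 57 34 1 0 = true := by decide +kernel

end Cfsg.Agent.KC.R11
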