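import Cfsg.Agent.KC.R11.C13x20

set_option maxRecDepth 100000
set_option Elab.async false

namespace Cfsg.Agent.KC.R11

theorem c44x2x0 : run3 10 [] 61 44 7 2 3 0 = true := by decide +kernel
theorem c18x36x1 : run3 10 [] 61 18 39 36 3 1 = true := by decide +kernel

end Cfsg.Agent.KC.R11
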