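import Cfsg.Agent.KC.Run

set_option maxRecDepth 100000
set_option Elab.async false

namespace Cfsg.Agent.KC.R11

theorem c12x9x1 : run3 10 [] 61 12 109 9 3 1 = true := by decide +kernel
theorem c23x1x0 : run3 10 [] 61 23 5 1 1 0 = true := by decide +kernel

end Cfsg.Agent.KC.R11
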