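import Cfsg.Agent.KC.R11.C15x27

set_option maxRecDepth 100000
set_option Elab.async false

namespace Cfsg.Agent.KC.R11

theorem c40x17x0 : run3 10 [] 61 40 21 17 1 0 = true := by decide +kernel
theorem c42x12x0 : run3 10 [] 61 42 57 12 1 0 = true := by decide +kernel
theorem c46x7x0 : run3 10 [] 61 46 33 7 1 0 = true := by decide +kernel
theorem c12x71x0 : run3 10 [] 61 12 109 71 1 0 = true := by decide +kernel
theorem c42x38x0 : run3 10 [] 61 42 57 38 1 0 = true := by decide +kernel
theorem c11x7x0 : run3 10 [] 61 11 87 7 1 0 = true := by decide +kernel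
theorem c11x76x0 : run3 10 [] 61 11 87 76 1 0 = true := by decide +kernel
theorem c15x21x0 : run3 10 [] 61 15 57 21 1 0 = true := by decide +kernel
theorem c43x3x0 : run3 10 [] 61 43 73 3 1 0 = true := by decide +kernel

end Cfsg.Agent.KC.R11
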