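import Cfsg.Agent.KC.R11.C15x32

set_option maxRecDepth 100000
set_option Elab.async false

namespace Cfsg.Agent.KC.R11

theorem c43x35x0 : run3 10 [] 61 43 73 35 1 0 = true := by decide +kernel
theorem c5x38x0 : run3 10 [] 61 5 59 38 1 0 = true := by decide +kernel
theorem c43x51x0 : run3 10 [] 61 43 73 51 1 0 = true := by decide +kernel
theorem c5x52x0 : run3 10 [] 61 5 59 52 1 0 = true := by decide +kernel
theorem c42x44x0 : run3 10 [] 61 42 57 44 1 0 = true := by decide +kernel
theorem c12x80x0 : run3 10 [] 61 12 109 80 1 0 = true := by decide +kernel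
theorem c12x107x0 : run3 10 [] 61 12 109 107 1 0 = true := by decide +kernel
theorem c15x55x0 : run3 10 [] 61 15 57 55 1 0 = true := by decide +kernel
theorem c5x17x0 : run3 10 [] 61 5 59 17 1 0 = true := by decide +kernel

end Cfsg.Agent.KC.R11
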