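import Cfsg.Agent.KC.R11.C15x33

set_option maxRecDepth 100000
set_option Elab.async false

namespace Cfsg.Agent.KC.R11

theorem c12x104x0 : run3 10 [] 61 12 109 104 1 0 = true := by decide +kernel
theorem c5x16x0 : run3 10 [] 61 5 59 16 1 0 = true := by decide +kernel
theorem c12x0x0 : run3 10 [] 61 12 109 0 1 0 = true := by decide +kernel
theorem c12x6x0 : run3 10 [] 61 12 109 6 1 0 = true := by decide +kernel
theorem c46x24x0 : run3 10 [] 61 46 33 24 1 0 = true := by decide +kernel
theorem c42x31x0 : run3 10 [] 61 42 57 31 1 0 = true := by decide +kernel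

end Cfsg.Agent.KC.R11
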