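import Cfsg.Agent.KC.R11.C17x26

set_option maxRecDepth 100000
set_option Elab.async false

namespace Cfsg.Agent.KC.R11

theorem c5x4x0 : run3 10 [] 61 5 59 4 1 0 = true := by decide +kernel
theorem c15x13x0 : run3 10 [] 61 15 57 13 1 0 = true := by decide +kernel
theorem c15x3x0 : run3 10 [] 61 15 57 3 1 0 = true := by decide +kernel
theorem c11x4x0 : run3 10 [] 61 11 87 4 1 0 = true := by decide +kernel
theorem c43x56x0 : run3 10 [] 61 43 73 56 1 0 = true := by decide +kernel
theorem c11x40x0 : run3 10 [] 61 11 87 40 1 0 = true := by decide +kernel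
theorem c12x1x0 : run3 10 [] 61 12 109 1 1 0 = true := by decide +kernel
theorem c9x10x0 : run3 10 [] 61 9 49 10 1 0 = true := by decide +kernel

end Cfsg.Agent.KC.R11
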