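import Cfsg.Agent.KC.R11.C1x13

set_option maxRecDepth 100000
set_option Elab.async false

namespace Cfsg.Agent.KC.R11

theorem c18x33x2 : run3 10 [] 61 18 39 33 5 2 = true := by decide +kernel
theorem c12x12x4 : run3 10 [] 61 12 109 12 5 4 = true := by decide +kernel

end Cfsg.Agent.KC.R11
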