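import Cfsg.Agent.KC.R11.C2x30

set_option maxRecDepth 100000
set_option Elab.async false

namespace Cfsg.Agent.KC.R11

theorem c42x14x0 : run3 10 [] 61 42 57 14 3 0 = true := by decide +kernel
theorem c12x67x0 : run3 10 [] 61 12 109 67 3 0 = true := by decide +kernel

end Cfsg.Agent.KC.R11
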