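import Cfsg.Agent.KC.R11.C4x32

set_option maxRecDepth 100000
set_option Elab.async false

namespace Cfsg.Agent.KC.R11

theorem c12x29x0 : run3 10 [] 61 12 109 29 1 0 = true := by decide +kernel
theorem c42x32x0 : run3 10 [] 61 42 57 32 1 0 = true := by decide +kernel
theorem c40x5x0 : run3 10 [] 61 40 21 5 1 0 = true := by decide +kernel
theorem c40x12x0 : run3 10 [] 61 40 21 12 1 0 = true := by decide +kernel
theorem c9x43x0 : run3 10 [] 61 9 49 43 1 0 = true := by decide +kernel
theorem c11x80x0 : run3 10 [] 61 11 87 80 1 0 = true := by decide +kernel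
theorem c5x37x0 : run3 10 [] 61 5 59 37 1 0 = true := by decide +kernel
theorem c43x45x0 : run3 10 [] 61 43 73 45 1 0 = true := by decide +kernel
theorem c11x32x0 : run3 10 [] 61 11 87 32 1 0 = true := by decide +kernel
theorem c5x35x0 : run3 10 [] 61 5 59 35 1 0 = true := by decide +kernel
theorem c9x6x0 : run3 10 [] 61 9 49 6 1 0 = true := by decide +kernel

end Cfsg.Agent.KC.R11
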