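import Cfsg.Agent.KC.R11.C5x5

set_option maxRecDepth 100000
set_option Elab.async false

namespace Cfsg.Agent.KC.R11

theorem c50x2x1 : run3 10 [] 61 50 11 2 3 1 = true := by decide +kernel
theorem c11x64x4 : run3 10 [] 61 11 87 64 5 4 = true := by decide +kernel
theorem c11x1x0 : run3 10 [] 61 11 87 1 1 0 = true := by decide +kernel

end Cfsg.Agent.KC.R11
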