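import Cfsg.Agent.KC.Run

set_option maxRecDepth 100000
set_option Elab.async false

namespace Cfsg.Agent.KC.R11

theorem c11x14x0 : run3 10 [] 61 11 87 14 1 0 = true := by decide +kernel
theorem c5x44x0 : run3 10 [] 61 5 59 44 1 0 = true := by decide +kernel
theorem c43x43x0 : run3 10 [] 61 43 73 43 1 0 = true := by decide +kernel
theorem c11x2x0 : run3 10 [] 61 11 87 2 1 0 = true := by decide +kernel
theorem c9x32x0 : run3 10 [] 61 9 49 32 1 0 = true := by decide +kernel
theorem c11x68x0 : run3 10 [] 61 11 87 68 1 0 = true := by decide +kernel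
theorem c9x12x0 : run3 10 [] 61 9 49 12 1 0 = true := by decide +kernel
theorem c15x49x0 : run3 10 [] 61 15 57 49 1 0 = true := by decide +kernel
theorem c11x57x0 : run3 10 [] 61 11 87 57 1 0 = true := by decide +kernel
theorem c42x49x0 : run3 10 [] 61 42 57 49 1 0 = true := by decide +kernel
theorem c43x21x0 : run3 10 [] 61 43 73 21 1 0 = true := by decide +kernel
theorem c5x33x0 : run3 10 [] 61 5 59 33 1 0 = true := by decide +kernel
theorem c5x24x0 : run3 10 [] 61 5 59 24 1 0 = true := by decide +kernel
theorem c11x3x0 : run3 10 [] 61 11 87 3 1 0 = true := by decide +kernel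

end Cfsg.Agent.KC.R11
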