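import Cfsg.Agent.KC.R11.C6x16

set_option maxRecDepth 100000
set_option Elab.async false

namespace Cfsg.Agent.KC.R11

theorem c11x58x0 : run3 10 [] 61 11 87 58 1 0 = true := by decide +kernel
theorem c18x29x0 : run3 10 [] 61 18 39 29 1 0 = true := by decide +kernel
theorem c11x9x0 : run3 10 [] 61 11 87 9 1 0 = true := by decide +kernel
theorem c42x3x0 : run3 10 [] 61 42 57 3 3 0 = true := by decide +kernel
theorem c42x7x0 : run3 10 [] 61 42 57 7 1 0 = true := by decide +kernel
theorem c9x25x0 : run3 10 [] 61 9 49 25 1 0 = true := by decide +kernel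

end Cfsg.Agent.KC.R11
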