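import Cfsg.Agent.KC.R11.C9x13

set_option maxRecDepth 100000
set_option Elab.async false

namespace Cfsg.Agent.KC.R11

theorem c11x5x0 : run3 10 [] 61 11 87 5 1 0 = true := by decide +kernel
theorem c11x83x0 : run3 10 [] 61 11 87 83 1 0 = true := by decide +kernel
theorem c11x86x0 : run3 10 [] 61 11 87 86 1 0 = true := by decide +kernel
theorem c9x41x0 : run3 10 [] 61 9 49 41 1 0 = true := by decide +kernel
theorem c11x13x0 : run3 10 [] 61 11 87 13 1 0 = true := by decide +kernel
theorem c11x82x0 : run3 10 [] 61 11 87 82 1 0 = true := by decide +kernel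
theorem c9x33x0 : run3 10 [] 61 9 49 33 1 0 = true := by decide +kernel
theorem c5x30x0 : run3 10 [] 61 5 59 30 1 0 = true := by decide +kernel
theorem c42x52x0 : run3 10 [] 61 42 57 52 1 0 = true := by decide +kernel
theorem c43x34x0 : run3 10 [] 61 43 73 34 1 0 = true := by decide +kernel
theorem c43x40x0 : run3 10 [] 61 43 73 40 1 0 = true := by decide +kernel
theorem c42x2x0 : run3 10 [] 61 42 57 2 1 0 = true := by decide +kernel

end Cfsg.Agent.KC.R11
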